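import Cfsg.Prelude.Def_Spor_Mathieu
import Cfsg.Agent.H860.Two24
import Cfsg.Agent.H865.ThreeClasses

/-!
# No square of an element of order 8 of `M24` is a cube of an element of order 12

The square of an element of order 8 has cycle type `1^4 2^2 4^4`; an element of order 3 commuting with it
would fix at least seven points.
-/

set_option autoImplicit false

namespace Cfsg.Agent.H862.M24EightTwelve

open Cfsg Cfsg.Agent.SporadicA.GolayBase Cfsg.Agent.SporadicA.GolayPerm
open Cfsg.Agent.SporadicStructure.M24El Cfsg.Agent.H865.Three Cfsg.Agent.H865.ThreeClasses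
open Cfsg.Agent.H860.Two24 Cfsg.Agent.H860.Two24Data
open scoped Pointwise

/-- a permutation whose cube is 1 has a fixed point on an invariant set of size prime to 3 -/
theorem exists_fixed {α : Type*} [DecidableEq α] {y : Equiv.Perm α}
    (hy : y ^ 3 = 1) (s : Finset α) (hs : ∀ a, a ∈ s ↔ y a ∈ s) (hc : ¬ 3 ∣ s.card) :
    ∃ a ∈ s, y a = a := by
  have : Fact (Nat.Prime 3) := ⟨Nat.prime_three⟩
  let σ : Equiv.Perm {a // a ∈ s} := y.subtypePerm (fun a => (hs a).symm)
  have hσ : σ ^ 3 ^ 1 = 1 := by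
    rw [pow_one]
    apply Equiv.ext
    intro a
    apply Subtype.ext
    have h1 : ((σ ^ 3) a : α) = (y ^ 3) (a : α) := rfl
    rw [h1, hy]
    rfl
  have hcard : ¬ 3 ∣ Fintype.card {a // a ∈ s} := by
    rw [Fintype.card_coe]
    exact hc
  obtain ⟨a, ha⟩ := Equiv.Perm.exists_fixed_point_of_prime hcard hσ
  exact ⟨a, a.2, congrArg Subtype.val ha⟩

/-- the packed square of the representative of order 8 -/
def Q : ℕ := pcomp (rp.getD 6 idP) (rp.getD 6 idP)

theorem okQ : ok Q = true := by decide +kernel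

/-- points fixed by `Q` -/
def s1 : Finset GolayPt := Finset.univ.filter fun p => papp Q (idx p) = idx p

/-- points in 2-cycles of `Q` -/
def s2 : Finset GolayPt := Finset.univ.filter fun p =>
  papp Q (idx p) ≠ idx p ∧ papp Q (papp Q (idx p)) = idx p

/-- points in 4-cycles of `Q` -/
def s4 : Finset GolayPt := Finset.univ.filter fun p => papp Q (papp Q (idx p)) ≠ idx p

theorem order_rp (j : ℕ) (hj : j ≠ 6) : el (rp.getD j idP) ^ 4 = 1 := by
  have hok := ok_getD rp_ok j
  have h : pcomp (pcomp (rp.getD j idP) (rp.getD j idP)) (pcomp (rp.getD j idP) (rp.getD j idP)) = idP := by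
    by_cases h7 : j < 7
    · have : ∀ j < 7, j ≠ 6 → pcomp (pcomp (rp.getD j idP) (rp.getD j idP))
        (pcomp (rp.getD j idP) (rp.getD j idP)) = idP := by decide +kernel
      exact this j h7 hj
    · have e : rp.getD j idP = idP := by
        have h3 : rp.length ≤ j := by
          have : rp.length = 7 := rfl
          omega
        rw [List.getD_eq_getElem?_getD, List.getElem?_eq_none h3]
        rfl
      rw [e]
      decide +kernel
  have h2 := congrArg el h
  rw [el_pcomp (ok_pcomp hok hok) (ok_pcomp hok hok), el_pcomp hok hok, el_idP] at h2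
  rw [← h2, pow_succ, pow_succ, pow_two]
  group

theorem ncard_fx_le {y : M24} (hy : orderOf y = 3) : (fx (Subgroup.zpowers y)).ncard ≤ 6 := by
  obtain ⟨c, hc⟩ := conj_of_orderOf hy
  have h1 := ncard_fx_conj c (Subgroup.zpowers y)
  rw [conj_smul_zpowers] at h1
  rcases hc with hc | hc
  · rw [hc, ncard_fx_A] at h1
    omega
  · rw [hc, ncard_fx_B] at h1
    omega

theorem seven : ∀ a ∈ s1, ∀ b ∈ s2, ∀ c ∈ s4,
    (({a, b, pt (papp Q (idx b)), c, pt (papp Q (idx c)), pt (papp Q (papp Q (idx c))),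
      pt (papp Q (papp Q (papp Q (idx c))))} : Finset GolayPt)).card = 7 := by
  decide +kernel

theorem cards : s1.card = 4 ∧ s2.card = 4 ∧ s4.card = 16 := by decide +kernel

theorem papp_lt' {i : ℕ} (hi : i < 24) : papp Q i < 24 := papp_lt (ok_iff.1 okQ).1 hi

theorem pt_papp (p : GolayPt) : pt (papp Q (idx p)) = el Q • p := (el_smul_pt okQ p).symm

theorem pt_papp2 (p : GolayPt) : pt (papp Q (papp Q (idx p))) = el Q • el Q • p := by
  rw [el_smul_pt okQ (el Q • p), idx_el_smul okQ]

theorem pt_papp3 (p : GolayPt) : pt (papp Q (papp Q (papp Q (idx p)))) = el Q • el Q • el Q • p := by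
  rw [el_smul_pt okQ (el Q • el Q • p), idx_el_smul okQ, idx_el_smul okQ]

theorem mem_s1 {p : GolayPt} : p ∈ s1 ↔ el Q • p = p := by
  unfold s1
  rw [Finset.mem_filter, ← idx_el_smul okQ]
  simp only [Finset.mem_univ, true_and]
  exact ⟨fun h => idx_injective h, fun h => by rw [h]⟩

theorem mem_s2 {p : GolayPt} : p ∈ s2 ↔ el Q • p ≠ p ∧ el Q • el Q • p = p := by
  unfold s2
  rw [Finset.mem_filter, ← idx_el_smul okQ, ← idx_el_smul okQ]
  simp only [Finset.mem_univ, true_and]
  exact ⟨fun h => ⟨fun h1 => h.1 (by rw [h1]), idx_injective h.2⟩,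
    fun h => ⟨fun h1 => h.1 (idx_injective h1), by rw [h.2]⟩⟩

theorem mem_s4 {p : GolayPt} : p ∈ s4 ↔ el Q • el Q • p ≠ p := by
  unfold s4
  rw [Finset.mem_filter, ← idx_el_smul okQ, ← idx_el_smul okQ]
  simp only [Finset.mem_univ, true_and]
  exact ⟨fun h => fun h1 => h (by rw [h1]), fun h => fun h1 => h (idx_injective h1)⟩

theorem smul_comm_pt {y : M24} (hy : y * el Q = el Q * y) (p : GolayPt) :
    el Q • y • p = y • el Q • p := by
  rw [smul_smul, smul_smul, hy]

/-- no element of order 3 commutes with the square of the representative of order 8 -/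
theorem no_commute {y : M24} (h3 : orderOf y = 3) (hy : y * el Q = el Q * y) : False := by
  have hc := smul_comm_pt hy
  have hinj : ∀ p q : GolayPt, y • p = y • q ↔ p = q := fun p q => smul_left_cancel_iff y
  have hy3 : (y : Equiv.Perm GolayPt) ^ 3 = 1 := by
    have h := pow_orderOf_eq_one y
    rw [h3] at h
    have h2 := congrArg Subtype.val h
    exact h2
  have hfix : ∀ p : GolayPt, (y : Equiv.Perm GolayPt) p = y • p := fun p => rfl
  obtain ⟨a, ha, ha'⟩ := exists_fixed hy3 s1 (fun p => by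
    rw [hfix, mem_s1, mem_s1, hc, hinj]) (by rw [cards.1]; norm_num)
  obtain ⟨b, hb, hb'⟩ := exists_fixed hy3 s2 (fun p => by
    rw [hfix, mem_s2, mem_s2, hc, hc, ne_eq, ne_eq, hinj, hinj]) (by rw [cards.2.1]; norm_num)
  obtain ⟨c, hc1, hc'⟩ := exists_fixed hy3 s4 (fun p => by
    rw [hfix, mem_s4, mem_s4, hc, hc, ne_eq, ne_eq, hinj]) (by rw [cards.2.2]; norm_num)
  rw [hfix] at ha' hb' hc'
  have h7 := seven a ha b hb c hc1
  have hsub : ((({a, b, pt (papp Q (idx b)), c, pt (papp Q (idx c)), pt (papp Q (papp Q (idx c))),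
      pt (papp Q (papp Q (papp Q (idx c))))} : Finset GolayPt)) : Set GolayPt) ⊆
      fx (Subgroup.zpowers y) := by
    intro p hp
    rw [mem_fx_zpowers, hfix]
    rw [pt_papp, pt_papp, pt_papp2, pt_papp3] at hp
    simp only [Finset.coe_insert, Finset.coe_singleton, Set.mem_insert_iff,
      Set.mem_singleton_iff] at hp
    rcases hp with rfl | rfl | rfl | rfl | rfl | rfl | rfl
    · exact ha'
    · exact hb'
    · rw [← hc, hb']
    · exact hc'
    · rw [← hc, hc']
    · rw [← hc, ← hc, hc']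
    · rw [← hc, ← hc, ← hc, hc']
  have h8 := Set.ncard_le_ncard hsub (Set.toFinite _)
  rw [Set.ncard_coe_finset, h7] at h8
  have h9 := ncard_fx_le h3
  omega

/-- In `M24` the square of an element of order 8 is never the cube of an element of order 12. -/
theorem m24_no (h g : M24) (hh : orderOf h = 8) (hg : orderOf g = 12) : h ^ 2 ≠ g ^ 3 := by
  intro he
  have h8 : h ^ 2 ^ 3 = 1 := by
    have := pow_orderOf_eq_one h
    rwa [hh] at this
  obtain ⟨c, j, hj⟩ := two_conj h8
  have hj6 : j = 6 := by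
    by_contra hne
    have h4 := order_rp j hne
    rw [← hj, conj_pow, conj_eq_one_iff] at h4
    have := orderOf_dvd_of_pow_eq_one h4
    rw [hh] at this
    omega
  rw [hj6] at hj
  have hQ : el Q = c * g ^ 3 * c⁻¹ := by
    unfold Q
    rw [el_pcomp (ok_getD rp_ok 6) (ok_getD rp_ok 6), ← hj, ← he, pow_two]
    group
  refine no_commute (y := c * g ^ 4 * c⁻¹) ?_ ?_
  · have h1 : orderOf (c * g ^ 4 * c⁻¹) = orderOf (g ^ 4) := by
      have := MulEquiv.orderOf_eq (MulAut.conj c) (g ^ 4)
      simpa using this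
    rw [h1, orderOf_pow' g (by norm_num), hg]
    norm_num
  · rw [hQ]
    have e1 : c * g ^ 4 * c⁻¹ * (c * g ^ 3 * c⁻¹) = c * (g ^ 4 * g ^ 3) * c⁻¹ := by group
    have e2 : c * g ^ 3 * c⁻¹ * (c * g ^ 4 * c⁻¹) = c * (g ^ 3 * g ^ 4) * c⁻¹ := by group
    rw [e1, e2, ← pow_add, ← pow_add]

/-- The same in any copy of `M24`. -/
theorem iso_no {G : Type*} [Group G] (hG : Spor.IsoM24 G) (h g : G) (hh : orderOf h = 8)
    (hg : orderOf g = 12) : h ^ 2 ≠ g ^ 3 := by
  obtain ⟨e⟩ := hG
  intro he
  refine m24_no (e h) (e g) ?_ ?_ ?_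
  · rw [MulEquiv.orderOf_eq, hh]
  · rw [MulEquiv.orderOf_eq, hg]
  · rw [← map_pow, ← map_pow, he]

end Cfsg.Agent.H862.M24EightTwelve
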